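import Cfsg.Agent.H419.VanOrd.ThreePt
import Cfsg.Agent.H723.L2Even
import Cfsg.Agent.H363.PslCard

/-!
# Facts on `PSL(2, 2^f)` (helper419)
-/

set_option autoImplicit false

namespace Cfsg.Agent.H419.VanOrd

open Cfsg Cfsg.Agent.H713 MulAction Cfsg.Agent.TwoFusion.ElemCentSylow
open scoped Pointwise

universe u v

/-- Isomorphic to `PSL(2, 2^f)`, `f ≥ 2`. -/
def L2 (T : Type*) [Group T] : Prop :=
  ∃ (F : Type) (_ : Field F) (_ : Fintype F) (_ : CharP F 2), 4 ≤ Fintype.card F ∧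
    Nonempty (T ≃* Matrix.ProjectiveSpecialLinearGroup (Fin 2) F)

theorem L2.mulEquiv {T : Type*} [Group T] {S : Type*} [Group S] (e : S ≃* T) (h : L2 T) : L2 S := by
  obtain ⟨F, i1, i2, i3, h4, ⟨e'⟩⟩ := h
  exact ⟨F, i1, i2, i3, h4, ⟨e.trans e'⟩⟩

variable {T : Type u} [Group T] [Finite T]

/-- In a group `PSL(2, 2^f)` all elements of even order are involutions. -/
theorem even_inv {q : ℕ} (c : Ctx T q) {x : T} (hx : 2 ∣ orderOf x) : orderOf x = 2 := by
  obtain ⟨m, hm⟩ := hx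
  have hpos : 0 < orderOf x := orderOf_pos x
  have hm0 : 0 < m := by omega
  have ht : orderOf (x ^ m) = 2 := by
    rw [orderOf_pow, hm, Nat.gcd_eq_right (Dvd.intro_left 2 rfl), Nat.mul_div_cancel _ hm0]
  have h3 : x * x = 1 := c.h.sq ht (by rw [← pow_succ, ← pow_succ'])
  have hx1 : x ≠ 1 := by
    rintro rfl
    rw [one_pow, orderOf_one] at ht
    omega
  exact orderOf_eq_prime (by rw [pow_two]; exact h3) hx1

/-- Involutions of `PSL(2, 2^f)` are `VZ` elements. -/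
theorem vz_inv {q : ℕ} (c : Ctx T q) {P Q : Sylow 2 T} (hPQ : P ≠ Q) {x : T} (hx : orderOf x = 2) :
    VZ T x := by
  classical
  have hcard : 3 ≤ Nat.card (Sylow 2 T) := by
    have h1 := c.card_points P hPQ
    have h2 := card_ne P
    have h4 := c.four
    omega
  have hthird : ∀ P Q : Sylow 2 T, ∃ R : Sylow 2 T, P ≠ R ∧ Q ≠ R := by
    intro P Q
    by_contra hcon
    push Not at hcon
    have h1 : ∀ R : Sylow 2 T, R = P ∨ R = Q := by
      intro R
      by_cases h : P = R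
      · exact Or.inl h.symm
      · exact Or.inr (hcon R h).symm
    have : Fintype (Sylow 2 T) := Fintype.ofFinite _
    have h2 : (Finset.univ : Finset (Sylow 2 T)) ⊆ {P, Q} := by
      intro R _
      simpa using h1 R
    have h3 := Finset.card_le_card h2
    have h5 : ({P, Q} : Finset (Sylow 2 T)).card ≤ 2 := Finset.card_le_two
    rw [Finset.card_univ, ← Nat.card_eq_fintype_card] at h3
    omega
  have h2t : MulAction.IsMultiplyPretransitive T (Sylow 2 T) 2 := by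
    rw [MulAction.is_two_pretransitive_iff]
    intro P Q P' Q' hPQ hPQ'
    obtain ⟨R, hPR, hQR⟩ := hthird P Q
    obtain ⟨R', hPR', hQR'⟩ := hthird P' Q'
    obtain ⟨g, hg1, hg2, -⟩ := c.three_transitive P Q R P' Q' R' hPQ hPR hQR hPQ' hPR' hQR'
    exact ⟨g, hg1, hg2⟩
  obtain ⟨θ, hθ⟩ := Cfsg.Agent.H419.TwoTrans.exists_irr (Sylow 2 T) h2t (by omega)
  refine ⟨θ, fun α => ?_⟩
  have hα : orderOf (α x) = 2 := by rw [MulEquiv.orderOf_eq, hx]
  have hα1 : α x ≠ 1 := by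
    intro h
    rw [h, orderOf_one] at hα
    omega
  obtain ⟨R, hR⟩ := exists_sylow_mem hα
  have h1 : Nat.card (fixedBy (Sylow 2 T) (α x)) = 1 := by
    rw [Nat.card_eq_one_iff_unique]
    refine ⟨⟨fun a b => ?_⟩, ⟨⟨R, mem_stab_of_mem hR⟩⟩⟩
    apply Subtype.ext
    have h3 : ∀ S : Sylow 2 T, (α x) • S = S → S = R := by
      intro S hS
      by_contra hne
      exact hα1 (c.eq_one_of_fix (Ne.symm hne) hR hS)
    exact (h3 a.1 a.2).trans (h3 b.1 b.2).symm
  rw [hθ, h1]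
  simp

/-- The facts on `PSL(2, 2^f)` needed below. -/
structure Facts (T : Type*) [Group T] [Finite T] : Prop where
  simple : IsSimpleGroup T
  even : ∀ x : T, 2 ∣ orderOf x → orderOf x = 2
  inv : ∀ x : T, orderOf x = 2 → VZ T x
  klein : ∃ s t : T, orderOf s = 2 ∧ orderOf t = 2 ∧ orderOf (s * t) = 2
  odd : ∃ y : T, Odd (orderOf y) ∧ y ≠ 1 ∧ VZ T y
  ctx : ∃ q : ℕ, Ctx T q ∧ ∃ P Q : Sylow 2 T, P ≠ Q

theorem facts_of {F : Type v} [Field F] [Fintype F] [CharP F 2] (h4 : 4 ≤ Fintype.card F)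
    (e : T ≃* Matrix.ProjectiveSpecialLinearGroup (Fin 2) F) : Facts T := by
  obtain ⟨c, P, Q, hPQ⟩ := Cfsg.Agent.H723.L2Even.ctx e h4
  refine ⟨Cfsg.Agent.H723.L2Even.simple e h4, fun x hx => even_inv c hx, fun x hx => vz_inv c hPQ hx,
    ?_, ?_, ⟨_, c, P, Q, hPQ⟩⟩
  · -- two commuting involutions
    have hP := c.card P
    have h5 : 2 < Nat.card P := by
      have := c.four
      omega
    have : Fintype P := Fintype.ofFinite _
    rw [Nat.card_eq_fintype_card] at h5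
    obtain ⟨s, t, hs, ht, hst⟩ : ∃ s t : P, s ≠ 1 ∧ t ≠ 1 ∧ s ≠ t := by
      obtain ⟨a, b, c, h1, h2, h3⟩ := Fintype.two_lt_card_iff.1 h5
      by_cases ha : a = 1
      · exact ⟨b, c, fun h => h1 (ha.trans h.symm), fun h => h2 (ha.trans h.symm), h3⟩
      · by_cases hb : b = 1
        · exact ⟨a, c, ha, fun h => h3 (hb.trans h.symm), h2⟩
        · exact ⟨a, b, ha, hb, h1⟩
    have hne : ∀ a : P, a ≠ 1 → (a : T) ≠ 1 := fun a h h' => h (Subtype.ext h')
    refine ⟨s, t, c.h.orderOf_eq P s.2 (hne s hs), c.h.orderOf_eq P t.2 (hne t ht), ?_⟩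
    refine c.h.orderOf_eq P (mul_mem s.2 t.2) ?_
    intro h1
    apply hst
    apply Subtype.ext
    rw [eq_inv_of_mul_eq_one_left h1]
    exact inv_eq_of_mul_eq_one_left (c.h.mul_self P t.2)
  · obtain ⟨y, hy⟩ := Cfsg.Agent.H723.L2Even.exists_order e h4
    have hy1 : y ≠ 1 := by
      rintro rfl
      rw [orderOf_one] at hy
      omega
    refine ⟨y, ?_, hy1, Cfsg.Agent.H723.L2Even.vz_of_dvd e h4 hy1 (by rw [hy])⟩
    rw [hy]
    exact (Cfsg.Agent.H723.L2Even.card_even (F := F)).add_one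

theorem L2.facts (h : L2 T) : Facts T := by
  obtain ⟨F, i1, i2, i3, h4, ⟨e⟩⟩ := h
  exact facts_of h4 e

end Cfsg.Agent.H419.VanOrd
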