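import Cfsg.Agent.H419.VanOrd.Reg
import Cfsg.Agent.H419.TwoTrans
import Cfsg.Agent.TwoFusion.ElemCentSylow

/-!
# Groups with a normal subgroup `PSL(2, 2^f)` (helper419)
-/

set_option autoImplicit false

namespace Cfsg.Agent.H419.VanOrd

open Cfsg Cfsg.Agent.H713 MulAction Cfsg.Agent.TwoFusion.ElemCentSylow
open scoped Pointwise

universe u v

section

variable {G : Type u} [Group G]

/-- The set of Sylow 2-subgroups of a normal subgroup, with the action of the whole group. -/
def Om (N : Subgroup G) : Type u := Sylow 2 N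

noncomputable instance omMulAction (N : Subgroup G) [N.Normal] : MulAction G (Om N) :=
  MulAction.compHom (Sylow 2 N) (MulAut.conjNormal : G →* MulAut N)

instance omFinite (N : Subgroup G) [Finite G] : Finite (Om N) := inferInstanceAs (Finite (Sylow 2 N))

/-- The action of an element on the Sylow 2-subgroups of a normal subgroup. -/
noncomputable def ac {N : Subgroup G} [N.Normal] (g : G) (P : Sylow 2 N) : Sylow 2 N :=
  (MulAut.conjNormal g : MulAut N) • P

variable {N : Subgroup G} [N.Normal]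

theorem ac_mul (x y : G) (P : Sylow 2 N) : ac (x * y) P = ac x (ac y P) := by
  unfold ac
  rw [map_mul, mul_smul]

theorem ac_one (P : Sylow 2 N) : ac (1 : G) P = P := by
  unfold ac
  rw [map_one, one_smul]

theorem ac_inv_eq (x : G) (P Q : Sylow 2 N) : ac x⁻¹ P = Q ↔ P = ac x Q := by
  constructor
  · rintro rfl
    rw [← ac_mul, mul_inv_cancel, ac_one]
  · rintro rfl
    rw [← ac_mul, inv_mul_cancel, ac_one]

theorem ac_inj (x : G) {P Q : Sylow 2 N} (h : ac x P = ac x Q) : P = Q := by
  rw [← (ac_inv_eq x (ac x P) P).2 rfl, h, (ac_inv_eq x (ac x Q) Q).2 rfl]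

theorem ac_coe (n : N) (P : Sylow 2 N) : ac (n : G) P = n • P := by
  unfold ac
  rw [MulAut.conjNormal_val]
  rfl

theorem mem_ac (x : G) (P : Sylow 2 N) (y : N) :
    y ∈ ac x P ↔ (MulAut.conjNormal x⁻¹ : MulAut N) y ∈ P := by
  show y ∈ (MulAut.conjNormal x : MulAut N) • (P : Subgroup N) ↔ _
  rw [Subgroup.mem_pointwise_smul_iff_inv_smul_mem, map_inv]
  rfl

theorem conj_mem_of_ac {x : G} {P : Sylow 2 N} {y : N} (hx : ac x P = P) (hy : y ∈ P) :
    (MulAut.conjNormal x : MulAut N) y ∈ P := by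
  rw [← hx, mem_ac, ← MulAut.mul_apply, ← map_mul, inv_mul_cancel, map_one]
  exact hy

theorem conj_smul (x : G) (n : N) (P : Sylow 2 N) :
    ((MulAut.conjNormal x : MulAut N) n) • P = ac x (n • (ac x⁻¹ P)) := by
  rw [← ac_coe, ← ac_coe, ← ac_mul, ← ac_mul]
  rfl

theorem ac_pow {x : G} {P : Sylow 2 N} (h : ac x P = P) (k : ℕ) : ac (x ^ k) P = P := by
  induction k with
  | zero => rw [pow_zero, ac_one]
  | succ k ih => rw [pow_succ, ac_mul, h, ih]

end

section

variable {G : Type u} [Group G] [Finite G] (N : Subgroup G) [hN : N.Normal]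

theorem eq_top_of_ctx (hE : Ev G) {q : ℕ} (c : Ctx N q) {P₀ Q₀ : Sylow 2 N} (hPQ₀ : P₀ ≠ Q₀)
    (hC : Subgroup.centralizer (N : Set G) = ⊥) : N = ⊤ := by
  classical
  -- the third point
  have hcard : 3 ≤ Nat.card (Sylow 2 N) := by
    have h1 := c.card_points P₀ hPQ₀
    have h2 := card_ne P₀
    have h4 := c.four
    omega
  have hthird : ∀ P Q : Sylow 2 N, ∃ R : Sylow 2 N, P ≠ R ∧ Q ≠ R := by
    intro P Q
    by_contra hcon
    push Not at hcon
    have h1 : ∀ R : Sylow 2 N, R = P ∨ R = Q := by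
      intro R
      by_cases h : P = R
      · exact Or.inl h.symm
      · exact Or.inr (hcon R h).symm
    have : Fintype (Sylow 2 N) := Fintype.ofFinite _
    have h2 : (Finset.univ : Finset (Sylow 2 N)) ⊆ {P, Q} := by
      intro R _
      simpa using h1 R
    have h3 := Finset.card_le_card h2
    have h5 : ({P, Q} : Finset (Sylow 2 N)).card ≤ 2 := Finset.card_le_two
    rw [Finset.card_univ, ← Nat.card_eq_fintype_card] at h3
    omega
  -- two-transitivity
  have key2 : ∀ P Q P' Q' : Sylow 2 N, P ≠ Q → P' ≠ Q' → ∃ g : G, ac g P = P' ∧ ac g Q = Q' := by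
    intro P Q P' Q' hPQ hPQ'
    obtain ⟨R, hPR, hQR⟩ := hthird P Q
    obtain ⟨R', hPR', hQR'⟩ := hthird P' Q'
    obtain ⟨g, hg1, hg2, -⟩ := c.three_transitive P Q R P' Q' R' hPQ hPR hQR hPQ' hPR' hQR'
    rw [← ac_coe] at hg1 hg2
    exact ⟨g, hg1, hg2⟩
  have h2t : MulAction.IsMultiplyPretransitive G (Om N) 2 := by
    rw [MulAction.is_two_pretransitive_iff]
    intro P Q P' Q' hPQ hPQ'
    exact key2 P Q P' Q' hPQ hPQ'
  have hvan : ∀ (g : G) (P : Sylow 2 N), ac g P = P → (∀ R : Sylow 2 N, ac g R = R → R = P) →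
      Van G g := by
    intro g P hgP hg
    refine Cfsg.Agent.H419.TwoTrans.van_of_fix_one (Om N) h2t (by
      show 2 ≤ Nat.card (Sylow 2 N)
      omega) ?_
    rw [Nat.card_eq_one_iff_unique]
    refine ⟨⟨fun a b => ?_⟩, ⟨⟨P, hgP⟩⟩⟩
    apply Subtype.ext
    exact (hg a.1 a.2).trans (hg b.1 b.2).symm
  -- faithfulness
  have hfaith : ∀ g : G, (∀ R : Sylow 2 N, ac g R = R) → g = 1 := by
    intro g hg
    have h1 : g ∈ Subgroup.centralizer (N : Set G) := by
      rw [Subgroup.mem_centralizer_iff]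
      intro n hn
      obtain ⟨R, hPR, hQR⟩ := hthird P₀ Q₀
      have h3 : ∀ S : Sylow 2 N,
          (((MulAut.conjNormal g : MulAut N) (⟨n, hn⟩ : N)) * (⟨n, hn⟩ : N)⁻¹ : N) • S = S := by
        intro S
        have hg' : ∀ R : Sylow 2 N, ac g⁻¹ R = R := fun R => by rw [ac_inv_eq, hg]
        rw [mul_smul, conj_smul, hg', hg, smul_smul, mul_inv_cancel, one_smul]
      have h4 := c.eq_one_of_fix_three hPQ₀ hPR hQR (h3 _) (h3 _) (h3 _)
      have h5 : g * n * g⁻¹ * n⁻¹ = 1 := congrArg Subtype.val h4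
      rw [mul_inv_eq_one, mul_inv_eq_iff_eq_mul] at h5
      exact h5.symm
    rw [hC, Subgroup.mem_bot] at h1
    exact h1
  -- the main point
  have hprime : ∀ (p : ℕ) (h : G), p.Prime → orderOf h = p → ∀ P Q R : Sylow 2 N, P ≠ Q → P ≠ R →
      Q ≠ R → ac h P = P → ac h Q = Q → ac h R = R → False := by
    intro p h hp ho P Q R hPQ hPR hQR hhP hhQ hhR
    obtain ⟨u, ⟨huP, huQ⟩, huu⟩ := c.regular (P := P) hPQ.symm hPR.symm
    have hu1 : u ≠ 1 := by
      rintro rfl
      rw [one_smul] at huQ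
      exact hQR huQ
    have hu2 : orderOf u = 2 := c.h.orderOf_eq P huP hu1
    have hh' : ∀ S : Sylow 2 N, ac h S = S → ac h⁻¹ S = S := fun S hS => by
      rw [ac_inv_eq, hS]
    have hcomm : (MulAut.conjNormal h : MulAut N) u = u := by
      apply huu
      refine ⟨conj_mem_of_ac hhP huP, ?_⟩
      rw [conj_smul, hh' Q hhQ, huQ, hhR]
    have hcomm' : Commute h (u : G) := by
      have h1 : h * (u : G) * h⁻¹ = u := congrArg Subtype.val hcomm
      exact mul_inv_eq_iff_eq_mul.1 h1
    have hu2' : orderOf (u : G) = 2 := by rw [Subgroup.orderOf_coe, hu2]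
    have hufix : ∀ w : N, w ∈ P → w ≠ 1 → ∀ S : Sylow 2 N, ac (w : G) S = S → S = P := by
      intro w hw hw1 S hS
      by_contra hne
      rw [ac_coe] at hS
      exact hw1 (c.eq_one_of_fix (Ne.symm hne) hw hS)
    have huP' : ∀ w : N, w ∈ P → ac (w : G) P = P := by
      intro w hw
      rw [ac_coe]
      exact mem_stab_of_mem hw
    rcases eq_or_ne p 2 with rfl | hp2
    · -- `h` is an involution
      obtain ⟨v, hvP, hv⟩ : ∃ v : N, v ∈ P ∧ (MulAut.conjNormal h : MulAut N) v ≠ v := by
        by_contra hcon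
        push Not at hcon
        have h1 : h = 1 := by
          apply hfaith
          intro S
          by_cases hS : S = P
          · rw [hS, hhP]
          · obtain ⟨v, ⟨hv, hvS⟩, -⟩ := c.regular (P := P) hPQ.symm hS
            rw [← hvS, ← ac_coe, ← ac_mul]
            have h3 : h * (v : G) = v * h := by
              have h4 : h * (v : G) * h⁻¹ = v := congrArg Subtype.val (hcon v hv)
              exact mul_inv_eq_iff_eq_mul.1 h4
            rw [h3, ac_mul, hhQ]
        rw [h1, orderOf_one] at ho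
        omega
      have hh2 : h * h = 1 := by rw [← pow_two, ← ho, pow_orderOf_eq_one]
      have hhi : h⁻¹ = h := inv_eq_of_mul_eq_one_left hh2
      let w : N := (MulAut.conjNormal h : MulAut N) v * v
      have hw : w ∈ P := mul_mem (conj_mem_of_ac hhP hvP) hvP
      have hv2 : v * v = 1 := c.h.mul_self P hvP
      have hw1 : w ≠ 1 := by
        intro h1
        apply hv
        have h2 : (MulAut.conjNormal h : MulAut N) v = v⁻¹ := eq_inv_of_mul_eq_one_left h1
        rw [h2]
        exact inv_eq_of_mul_eq_one_left hv2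
      have hsq : (h * (v : G)) * (h * (v : G)) = (w : G) := by
        show (h * (v : G)) * (h * (v : G)) = h * (v : G) * h⁻¹ * v
        rw [hhi]
        group
      have hw2 : orderOf (w : G) = 2 := by rw [Subgroup.orderOf_coe, c.h.orderOf_eq P hw hw1]
      have hgP : ac (h * (v : G)) P = P := by
        rw [ac_mul, huP' v hvP, hhP]
      have hg := hvan (h * (v : G)) P hgP (by
        intro S hS
        apply hufix w hw hw1
        rw [← hsq, ac_mul, hS, hS])
      have h4 : orderOf (h * (v : G)) = 4 := by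
        have h5 : orderOf ((h * (v : G)) ^ 2) = 2 := by rw [pow_two, hsq, hw2]
        have h6 : (h * (v : G)) ^ 4 = 1 := by
          have h7 := pow_orderOf_eq_one ((h * (v : G)) ^ 2)
          rw [h5, ← pow_mul] at h7
          exact h7
        have h7 : orderOf (h * (v : G)) ∣ 2 ^ 2 := orderOf_dvd_of_pow_eq_one h6
        obtain ⟨j, hj, hj2⟩ := (Nat.dvd_prime_pow Nat.prime_two).1 h7
        interval_cases j
        · exfalso
          rw [pow_zero, orderOf_eq_one_iff] at hj2
          rw [hj2, one_pow, orderOf_one] at h5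
          omega
        · exfalso
          rw [pow_one] at hj2
          have h8 : (h * (v : G)) ^ 2 = 1 := by
            rw [← hj2]
            exact pow_orderOf_eq_one _
          rw [h8, orderOf_one] at h5
          omega
        · exact hj2
      have h5 := hE _ hg (by rw [h4]; norm_num)
      omega
    · have hcop : (orderOf h).Coprime (orderOf (u : G)) := by
        rw [ho, hu2']
        exact (Nat.coprime_primes hp Nat.prime_two).2 hp2
      have h3 : orderOf (h * (u : G)) = p * 2 := by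
        rw [hcomm'.orderOf_mul_eq_mul_orderOf_of_coprime hcop, ho, hu2']
      have hup : (h * (u : G)) ^ p = u := by
        have h5 : h ^ p = 1 := by rw [← ho, pow_orderOf_eq_one]
        rw [hcomm'.mul_pow, h5, one_mul]
        obtain ⟨k, hk⟩ := hp.odd_of_ne_two hp2
        have h4 : (u : G) ^ 2 = 1 := by rw [← hu2', pow_orderOf_eq_one]
        rw [hk, pow_succ, pow_mul, h4, one_pow, one_mul]
      have hg := hvan (h * (u : G)) P (by rw [ac_mul, huP' u huP, hhP]) (by
        intro S hS
        apply hufix u huP hu1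
        rw [← hup]
        exact ac_pow hS p)
      have h5 := hE _ hg (by rw [h3]; exact Dvd.intro_left _ rfl)
      rw [h3] at h5
      have := hp.two_le
      omega
  -- conclusion
  rw [eq_top_iff]
  intro x _
  obtain ⟨R₀, hPR₀, hQR₀⟩ := hthird P₀ Q₀
  have hinj : ∀ A B : Sylow 2 N, A ≠ B → ac x A ≠ ac x B := fun A B h h' => h (ac_inj x h')
  obtain ⟨n, hn1, hn2, hn3⟩ := c.three_transitive P₀ Q₀ R₀ (ac x P₀) (ac x Q₀) (ac x R₀) hPQ₀ hPR₀ hQR₀
    (hinj _ _ hPQ₀) (hinj _ _ hPR₀) (hinj _ _ hQR₀)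
  set h : G := (n : G)⁻¹ * x with hh
  have hfix : ∀ A : Sylow 2 N, n • A = ac x A → ac h A = A := by
    intro A hA
    rw [hh, ac_mul, ac_inv_eq, ac_coe, hA]
  have h1 : h = 1 := by
    by_contra hne
    have hne' : orderOf h ≠ 1 := fun h' => hne (orderOf_eq_one_iff.1 h')
    obtain ⟨p, hp, hpd⟩ := Nat.exists_prime_and_dvd hne'
    obtain ⟨m, hm⟩ := hpd
    have hpos : 0 < orderOf h := orderOf_pos h
    have hm0 : 0 < m := Nat.pos_of_ne_zero (by rintro rfl; omega)
    have ho : orderOf (h ^ m) = p := by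
      rw [orderOf_pow, hm, Nat.gcd_eq_right (Dvd.intro_left p rfl), Nat.mul_div_cancel _ hm0]
    exact hprime p (h ^ m) hp ho P₀ Q₀ R₀ hPQ₀ hPR₀ hQR₀ (ac_pow (hfix _ hn1) m)
      (ac_pow (hfix _ hn2) m) (ac_pow (hfix _ hn3) m)
  have h2 : x = n := (inv_mul_eq_one.1 h1).symm
  rw [h2]
  exact n.2

end

end Cfsg.Agent.H419.VanOrd
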